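import Cfsg.Agent.TH.ExT.Small
import Cfsg.Agent.TH.ExT.Md
import Cfsg.Agent.TH.ExT.Box
import Cfsg.Agent.SB.Low.TwoAut

/-!
# S3541, `³D₄(q)` : the local case (helper57)
-/

set_option autoImplicit false
set_option linter.unusedSectionVars false

namespace Cfsg.Agent.TH.ExT

open Subgroup Cfsg Cfsg.Lie Cfsg.Agent.TH.Sv Cfsg.Agent.SB.Low

/-- if every conjugate of `Ω` meets `Ω`, some class has at most `|Ω| ^ 2` elements -/
theorem pair_le {K : Type} [Group K] [Finite K] {Ω : Set K} {c : ℕ} (h1 : ∀ t : K, ∃ z ∈ Ω, t⁻¹ * z * t ∈ Ω)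
    (h2 : ∀ z ∈ Ω, c ≤ (centralizer {z}).index) : c ≤ Ω.ncard ^ 2 := by
  rcases Nat.eq_zero_or_pos c with rfl | h0
  · exact Nat.zero_le _
  have h3 := cover_le (A := (Set.univ : Set K)) (B := Ω ×ˢ Ω) (Set.toFinite _) (Set.toFinite _)
    (fun t x => t⁻¹ * x.1 * t = x.2) (k := Nat.card K / c) (fun t _ => by
      obtain ⟨z, hz, h⟩ := h1 t
      exact ⟨(z, _), ⟨hz, h⟩, rfl⟩) fun x hx => by
      rcases Set.eq_empty_or_nonempty {t ∈ (Set.univ : Set K) | t⁻¹ * x.1 * t = x.2} with h | ⟨s, -, hs⟩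
      · rw [h, Set.ncard_empty]
        exact Nat.zero_le _
      refine le_trans (Set.ncard_le_ncard_of_injOn (t := (centralizer {x.1} : Subgroup K)) (fun t => t * s⁻¹)
        (fun t ht => mem_centralizer_singleton_iff.2 ?_) (fun _ _ _ _ h => mul_right_cancel h)) ?_
      · calc t * s⁻¹ * x.1 = t * (s⁻¹ * x.1 * s) * s⁻¹ := by group
          _ = x.1 * (t * s⁻¹) := by rw [hs, ← ht.2]; group
      · rw [Nat.le_div_iff_mul_le h0, ← (centralizer {x.1}).card_mul_index]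
        exact Nat.mul_le_mul_left _ (h2 _ hx.1)
  rw [Set.ncard_univ, Set.ncard_prod, ← sq] at h3
  refine Nat.le_of_mul_le_mul_right ?_ (Nat.card_pos (α := K))
  calc c * Nat.card K ≤ c * (Ω.ncard ^ 2 * (Nat.card K / c)) := Nat.mul_le_mul_left _ h3
    _ = Ω.ncard ^ 2 * (Nat.card K / c * c) := by ring
    _ ≤ _ := Nat.mul_le_mul_left _ (Nat.div_mul_le_self _ _)

theorem six_lt {q : ℕ} (h : 2 ≤ q) : (q + 1) ^ 3 * (q + 1) ^ 3 < cP q := by
  obtain ⟨y, rfl⟩ := Nat.exists_eq_add_of_le' h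
  have h1 : (y + 2 + 1) ^ 5 < (y + 2) ^ 8 + (y + 2) ^ 4 + 1 := by
    ring_nf
    nlinarith [Nat.zero_le y, Nat.zero_le (y ^ 2), Nat.zero_le (y ^ 3), Nat.zero_le (y ^ 4), Nat.zero_le (y ^ 5),
      Nat.zero_le (y ^ 6), Nat.zero_le (y ^ 7), Nat.zero_le (y ^ 8)]
  calc _ = (y + 2 + 1) * (y + 2 + 1) ^ 5 := by ring
    _ < _ := Nat.mul_lt_mul_of_pos_left h1 (by omega)

theorem sq_lt {q : ℕ} (h : 4 ≤ q) : ((q + 1) ^ 3 * q) ^ 2 < q ^ 9 := by
  have h1 : (4 * (q + 1)) ^ 6 ≤ (5 * q) ^ 6 := Nat.pow_le_pow_left (by omega) 6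
  have h2 : 0 < q ^ 8 := by positivity
  have h3 : 4 * q ^ 8 ≤ q * q ^ 8 := Nat.mul_le_mul_right _ h
  have h4 := Nat.mul_le_mul_right (q ^ 2) h1
  rw [show (4 * (q + 1)) ^ 6 * q ^ 2 = 4096 * ((q + 1) ^ 3 * q) ^ 2 by ring,
    show (5 * q) ^ 6 * q ^ 2 = 15625 * q ^ 8 by ring] at h4
  rw [pow_succ' q 8]
  omega

theorem Lev.dvd_two {K : Type} [Group K] {E : Subgroup K} {p q : ℕ} (h : Lev p q E) : (Cz E).relIndex (Nz E) ∣ 2 := by
  rw [relIndex, index_dvd_two_iff]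
  by_cases h1 : ∀ b : Nz E, b ∈ (Cz E).subgroupOf (Nz E)
  · exact ⟨1, fun b => Or.inr (h1 b)⟩
  · push Not at h1
    obtain ⟨a, ha⟩ := h1
    exact ⟨a, fun b => ((h.idx b b.2 a a.2).imp_right fun h => h.resolve_left ha).symm⟩

variable {G : Type} [Group G] [Finite G] {T H E : Subgroup G} {m p f r : ℕ} {K : Type} [Field K] [Fintype K]
  {φ : ↥(twistedD4 K (p ^ f)) →* G}

namespace Cx

variable (c : Cx T H m p f K φ)

include c

theorem exists_aut (g : G) : ∃ α : MulAut ↥(twistedD4 K (p ^ f)), ∀ y, φ (α y) = g * φ y * g⁻¹ := by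
  have := c.as.normal
  refine ⟨(MulAut.congr c.iso).symm (MulAut.conjNormal g), fun y => ?_⟩
  show φ (c.iso.symm (MulAut.conjNormal g (c.iso y))) = _
  rw [← c.iso_apply, MulEquiv.apply_symm_apply, MulAut.conjNormal_apply, c.iso_apply]

variable (h : DS.Loc T H E r)

include h

theorem ea : EA r (E.comap φ) :=
  ⟨h.prime, c.comap_ne_bot (by rw [inf_eq_left.2 h.le_S]; exact h.ne_bot),
    fun x hx => c.inj (by rw [map_pow, h.pow _ hx, map_one]),
    fun x hx y hy => c.inj (by rw [map_mul, map_mul, h.comm _ hx _ hy])⟩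

theorem nz : Nz (E.comap φ) = H.comap φ := by rw [← h.norm, c.comap_norm h.le_S]

theorem card_eq : Nat.card ↥(H ⊓ T) =
    Nat.card (Cz (E.comap φ)) * (Cz (E.comap φ)).relIndex (Nz (E.comap φ)) := by
  rw [Own.card_mul_relIndex Cz_le_Nz, c.nz h, c.card_inf]

theorem chr_norm {X : Subgroup ↥(twistedD4 K (p ^ f))} (hX : Chr (E.comap φ) X) :
    ∀ a ∈ H, ∀ x ∈ X.map φ, a * x * a⁻¹ ∈ X.map φ := by
  rintro a ha _ ⟨x, hx, rfl⟩
  obtain ⟨α, hα⟩ := c.exists_aut a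
  refine ⟨α x, hX α (fun y hy => ?_) x hx, hα x⟩
  rw [mem_comap, hα]
  exact (mem_normalizer_iff.1 (h.norm.ge ha) _).1 hy

theorem map_le {X : Subgroup ↥(twistedD4 K (p ^ f))} (hX : X ≤ Nz (E.comap φ)) : X.map φ ≤ H :=
  map_le_iff_le_comap.2 (c.nz h ▸ hX)

theorem hmax (X : Subgroup ↥(twistedD4 K (p ^ f))) (h0 : X ≠ ⊥) (h1 : X ≤ Nz (E.comap φ)) (hX : Chr (E.comap φ) X) :
    Nz X ≤ Nz (E.comap φ) := by
  rw [c.nz h, ← c.half.normalizer_eq (fun e => h0 ((map_eq_bot_iff_of_injective X c.inj).1 e)) (c.map_le h h1)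
    (le_normalizer_of_conj (c.chr_norm h hX))]
  exact map_le_iff_le_comap.1 (le_normalizer_map φ)

theorem lev_odd (hL : Lev p (p ^ f) (E.comap φ)) (h2 : p ≠ 2) : False := by
  have := Fact.mk c.prime
  have e := (Cz (E.comap φ)).equivMapOfInjective φ c.inj
  have hp : p ∣ Nat.card ((Cz (E.comap φ)).map φ) := Nat.card_congr e.toEquiv ▸ hL.dvd
  have hT : (Cz (E.comap φ)).map φ ≤ T := c.range ▸ map_le_range φ _
  obtain ⟨P, hP⟩ := exists_sub (L := (Cz (E.comap φ)).map φ) c.prime (Nat.ordProj_dvd _ p)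
  have h1 := (c.par (hP.1.trans hT) (sub.ne_bot c.prime hp hP) (sub.isP hP)).trans
    (syl_bound c.as c.half (c.map_le h Cz_le_Nz) (le_normalizer_of_conj (c.chr_norm h (Chr.refl _).cz)) c.prime
      c.not_dvd_d hP fun t ht h3 x hx => by
      obtain ⟨y, rfl⟩ := c.exists_eq (((cj_mono t (hP.1.trans hT)).trans (cj_of_mem ht).le) hx)
      have h4 : y ∈ Nz (E.comap φ) := c.nz h ▸ h3 hx
      have h5 : y ^ 2 ∈ Cz (E.comap φ) := by
        rcases hL.idx y h4 y h4 with h | h | h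
        exacts [pow_mem h 2, pow_mem h 2, sq y ▸ h]
      obtain ⟨j, hj⟩ := isPGroup_cj (sub.isP hP) t ⟨_, hx⟩
      have h6 : orderOf y ∣ p ^ j := orderOf_dvd_of_pow_eq_one (c.inj (by
        rw [map_pow, map_one]; exact congrArg Subtype.val hj))
      obtain ⟨i, hi⟩ := exists_pow_eq_self_of_coprime (x := y) (n := 2)
        (Nat.Coprime.coprime_dvd_right h6 (((Nat.coprime_primes Nat.prime_two c.prime).2 h2.symm).pow_right j))
      exact mem_map_of_mem φ (hi ▸ pow_mem h5 i))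
  have h3 := (Nat.card_le_card_of_surjective _ (Sylow.mapSurjective_surjective (f := e.toMonoidHom)
    e.surjective p)).trans hL.nu
  exact absurd (h1.trans (Nat.mul_le_mul h3 ((min_le_left _ _).trans h3))) (not_le.2 (six_lt c.two_le))

theorem lev_two (hL : Lev p (p ^ f) (E.comap φ)) (h2 : p = 2) (h4 : 4 ≤ p ^ f) : False := by
  obtain ⟨h1, U, hU, hp, h3⟩ := hL.two h2 h4
  subst h2
  have := Fact.mk c.prime
  have h5 := pair_le (Ω := Sq (Cz (E.comap φ)) \ {1}) (c := (2 ^ f) ^ 9) (fun t => ?_) fun z hz => by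
    have := c.cls9 (x := φ z) fun e => hz.2 (c.inj (e.trans (map_one φ).symm))
    rwa [c.relIndex_T, c.comap_cent] at this
  · exact absurd (h5.trans (Nat.pow_le_pow_left ((Set.ncard_le_ncard Set.sdiff_subset (Set.toFinite _)).trans h1) 2))
      (not_le.2 (sq_lt h4))
  obtain ⟨_, ⟨b, hb, rfl⟩, h6⟩ := exists_cj_le_of_relIndex (K := cj (φ t) H) (fun e => c.not_dvd_d (e.trans
    (c.half.relIndex_dvd_d (c.map_le h Cz_le_Nz) (le_normalizer_of_conj (c.chr_norm h (Chr.refl _).cz)) _)))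
    (hp.map φ) (map_mono hU)
  have h7 : ∀ u ∈ U, t⁻¹ * b * u * (t⁻¹ * b)⁻¹ ∈ Nz (E.comap φ) := fun u hu => by
    have := mem_cj.1 (h6 (conj_mem_cj _ (mem_map_of_mem φ hu)))
    rw [c.nz h, mem_comap]
    simpa [mul_assoc] using this
  obtain ⟨y, hy, h8, h9⟩ := h3 ((Cz (E.comap φ)).comap (MulAut.conj (t⁻¹ * b)).toMonoidHom) fun x hx y hy => by
    rw [mem_comap, mem_comap, mem_comap, map_mul _ x y]
    exact hL.idx _ (h7 x hx) _ (h7 y hy)
  obtain ⟨j, hj⟩ := hp ⟨y, hy⟩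
  have k : ∀ g, g * y * g⁻¹ ∈ Cz (E.comap φ) → g * y ^ 2 * g⁻¹ ∈ Sq (Cz (E.comap φ)) \ {1} := fun g hg =>
    ⟨⟨_, hg, ⟨j, by rw [conj_pow, show y ^ 2 ^ j = 1 from congrArg Subtype.val hj, mul_one, mul_inv_cancel]⟩, conj_pow⟩,
      fun e => h9 (conj_eq_one_iff.1 e)⟩
  refine ⟨_, k b (mul_mem (mul_mem hb (hU hy)) (inv_mem hb)), ?_⟩
  convert k _ h8 using 1
  group

theorem two_case (h2 : r = 2) (hr : r ≠ p) : False := by
  subst h2
  have := c.char
  have h3 : 3 ≤ p ^ f := (lt_of_le_of_ne c.prime.two_le hr).trans_le (Nat.le_self_pow c.f_pos.ne' p)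
  have hE := c.ea h
  have ha := c.card_eq h
  have hk : (Cz (E.comap φ)).relIndex (Nz (E.comap φ)) ∣ Nat.card (MulAut (E.comap φ)) :=
    (twoA_relIndex _).dvd.trans (card_subgroup_dvd_card _)
  have pd : ∀ {a b : ℕ}, p ∣ 2 ^ a * b → p ∣ b := fun h =>
    (((Nat.coprime_primes c.prime Nat.prime_two).2 hr.symm).pow_right _).dvd_of_dvd_mul_left h
  rcases (boxTwoD p K _ hr.symm c.cardK).rk _ hE with h1 | ⟨h1, h4, h5⟩ | ⟨h1, h4, h5, -⟩
  · obtain ⟨z, hz, -, h4⟩ := hE.exists_ne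
    have h5 : zpowers z = E.comap φ := eq_of_le_of_card_ge (zpowers_le.2 hz) (by rw [h1, Nat.card_zpowers, h4])
    have h6 : Nz (E.comap φ) ≤ Cz (E.comap φ) := fun g hg => mem_Cz.2 fun x hx => by
      by_cases h7 : x = 1
      · rw [h7, one_mul, mul_one]
      obtain ⟨y, -, h8⟩ := (Nat.card_eq_two_iff' (1 : E.comap φ)).1 h1
      have h9 := (h8 ⟨_, mem_Nz.1 hg x hx⟩ fun e => h7 (conj_eq_one_iff.1 (congrArg Subtype.val e))).trans
        (h8 ⟨x, hx⟩ fun e => h7 (congrArg Subtype.val e)).symm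
      exact (mul_inv_eq_iff_eq_mul.1 (congrArg Subtype.val h9)).symm
    rw [relIndex_eq_one.2 h6, mul_one, ← h5, cz_zpowers] at ha
    exact c.cent_inv h3 (ha.trans (cc_inv p hr.symm c.cardK h4))
  · have h6 := (Nat.le_of_dvd Nat.card_pos hk).trans (twoA_card_aut_four h1)
    have h7 : Nat.card (MulAut (E.comap φ)) ∣ 2 ^ 3 * 3 := by
      have := card_dvd_of_injective (MulAut.toPerm (E.comap φ)) fun _ _ e => MulEquiv.ext fun x => Equiv.congr_fun e x
      rwa [Nat.card_perm, h1] at this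
    refine c.small h3 (ha.le.trans ((Nat.mul_le_mul h4 h6).trans ?_)) fun hp => Or.inr (Or.inl ?_)
    · generalize p ^ f = q
      nlinarith [Nat.zero_le q, Nat.zero_le (q ^ 2), Nat.zero_le (q ^ 3), Nat.zero_le (q ^ 4)]
    · exact (Nat.prime_dvd_prime_iff_eq c.prime Nat.prime_three).1
        (pd (((c.prime.dvd_mul.1 (ha ▸ hp)).resolve_left h5).trans (hk.trans h7)))
  · rw [StdL2.G23Aut.card_aut (fun v => Subtype.ext (by rw [← sq]; exact hE.pow v v.2)) h1] at hk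
    have h6 : Nat.card ↥(H ⊓ T) ≤ 2688 := ha.le.trans (Nat.mul_le_mul h4 (Nat.le_of_dvd (by norm_num) hk))
    refine c.small h3 (h6.trans ?_) fun hp => Or.inr ?_
    · have : 13 ≤ (p ^ f) ^ 2 + p ^ f + 1 := by nlinarith
      have := Nat.pow_le_pow_left this 2
      omega
    · have := Fact.mk Nat.prime_two
      obtain ⟨j, hj⟩ := IsPGroup.iff_card.1 h5
      rw [ha, hj] at hp
      exact (c.prime.dvd_mul.1 (pd (a := 3) (b := 3 * 7) ((pd hp).trans hk))).imp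
        (Nat.prime_dvd_prime_iff_eq c.prime Nat.prime_three).1
        fun h => ⟨(Nat.prime_dvd_prime_iff_eq c.prime (by norm_num)).1 h, h6⟩

end Cx

theorem boxAb : BoxAb := by
  intro G _ _ T H E m p f r K _ _ φ c _ h hr
  by_cases h2 : r = 2
  · exact c.two_case h h2 hr
  have := Fact.mk c.prime
  have := c.char
  have ha := c.card_eq h
  have hE := c.ea h
  have hc := odd_cases p c.ipp c.cardK hE h2 hr (c.hmax h)
  rcases c.two_le.eq_or_lt with hq | hq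
  · obtain ⟨rfl, rfl⟩ := (Nat.Prime.pow_eq_iff Nat.prime_two).1 hq.symm
    refine c.two (ha.le.trans ?_)
    rcases hc with hc | hc
    · exact (Nat.mul_le_mul hc.card hc.idx).trans (by norm_num)
    · obtain ⟨x, hx, h1, h3⟩ := hE.exists_ne
      have h4 : cc x ≤ 1512 := cc_two c.cardK (x := x) h1 fun e =>
        h2 ((Nat.prime_dvd_prime_iff_eq Nat.prime_two h.prime).1 (h3 ▸ e)).symm
      exact (Nat.mul_le_mul ((card_le_of_le (centralizer_le (Set.singleton_subset_iff.2 hx))).trans h4)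
        (Nat.le_of_dvd two_pos hc.dvd_two)).trans (by norm_num)
  rcases hc with hc | hc
  · refine c.small hq (ha.le.trans ((Nat.mul_le_mul hc.card hc.idx).trans (mul_comm _ _).le)) fun hp => ?_
    have h1 : p ∣ 2 ^ 6 * 3 := ((c.prime.dvd_mul.1 (ha ▸ hp)).resolve_left hc.nd).trans hc.dvd
    refine (c.prime.dvd_mul.1 h1).imp (fun h1 => ⟨(Nat.prime_dvd_prime_iff_eq c.prime Nat.prime_two).1
      (c.prime.dvd_of_dvd_pow h1), 3 * Nat.card (Cz (E.comap φ)), Nat.mul_pos three_pos Nat.card_pos,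
      Nat.mul_le_mul_left _ hc.card, ?_⟩) fun h1 => Or.inl ((Nat.prime_dvd_prime_iff_eq c.prime Nat.prime_three).1 h1)
    rw [ha, ← mul_assoc, mul_comm (2 ^ 6 * 3)]
    exact Nat.mul_dvd_mul_left _ hc.dvd
  · by_cases hp : p = 2
    · refine c.lev_two h hc hp ?_
      subst hp
      have h1 : f ≠ 1 := by rintro rfl; omega
      have := c.f_pos
      exact Nat.pow_le_pow_right (n := 2) (i := 2) two_pos (by omega)
    · exact c.lev_odd h hc hp

end Cfsg.Agent.TH.ExT
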