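import Cfsg.Agent.TH.ExT.SiNum
import Cfsg.Agent.OrdDiv.Main

/-!
# S3541, `³D₄(q)` with `H ⊓ T` almost simple: the tables (helper23)
-/

set_option autoImplicit false

namespace Cfsg.Agent.TH.ExT.Si

open Cfsg.Agent.H290.ElTab Cfsg.Agent.H252.EN

theorem tabL : ((reg 28).all fun x => chkT (od x.1 x.2.1 x.2.2) x.2.1 (ouN x.1 x.2.1 x.2.2)) = true := by
  decide +kernel

theorem tabP : ((reg 28).all fun x => sm.contains x.2.1) = true := by decide +kernel

theorem tabA : ((List.range 8).all fun n => Nat.blt n 5 || chkT (n.factorial / 2) 0 (if n = 6 then 4 else 2)) = true := by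
  decide +kernel

theorem tabS : (Cfsg.Agent.OrdDiv.spor.all fun x => chkT x.2 0 2) = true := by decide +kernel

end Cfsg.Agent.TH.ExT.Si
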