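import Cfsg.Agent.TH.ExT.Box
import Cfsg.Agent.TH.ExT.SiTab
import Cfsg.Agent.TH.Ex1.Enum
import Cfsg.Agent.TH.Sv.Sieve
import Cfsg.Agent.TH.Sv.Nec
import Cfsg.Agent.TH.Cl.Cases.Sim
import Cfsg.Agent.S2660

/-!
# S3541, `³D₄(q)` : `boxSi : BoxSi` (helper23)
-/

set_option autoImplicit false

namespace Cfsg.Agent.TH.ExT

open Subgroup Cfsg Cfsg.Lie Cfsg.Agent.H889.Enum Cfsg.Agent.H252.EN

namespace Si

variable {G : Type} [Group G] [Finite G] {T H N : Subgroup G} {m p f : ℕ} {K : Type} [Field K] [Fintype K]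
  {φ : ↥(twistedD4 K (p ^ f)) →* G}

theorem small_aux {q a o n : ℕ} (hq : 2 ≤ q) (h1 : q ^ 20 ≤ a * n) (h2 : n ≤ 3 * (a * o) ^ (2 * 1)) (h3 : o ≤ 3 * q)
    (h4 : 4 * a ^ 2 ≤ q ^ 9) : False := by
  have h5 : q ^ 20 ≤ 27 * q ^ 2 * a ^ 3 :=
    calc q ^ 20 ≤ a * (3 * (a * (3 * q)) ^ (2 * 1)) := h1.trans (by gcongr; exact h2.trans (by gcongr))
      _ = _ := by ring
  have h6 : 64 * (q ^ 20) ^ 2 ≤ 729 * q ^ 31 :=
    calc 64 * (q ^ 20) ^ 2 ≤ 64 * (27 * q ^ 2 * a ^ 3) ^ 2 := by gcongr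
      _ = 729 * q ^ 4 * (4 * a ^ 2) ^ 3 := by ring
      _ ≤ 729 * q ^ 4 * (q ^ 9) ^ 3 := by gcongr
      _ = _ := by ring
  have h7 := Nat.mul_le_mul_right (q ^ 31) (Nat.pow_le_pow_left hq 9)
  have h8 : 0 < q ^ 31 := by positivity
  rw [← pow_add, show 9 + 31 = 40 from rfl] at h7
  rw [← pow_mul, show 20 * 2 = 40 from rfl] at h6
  omega

/-- `H ⊓ T` is not too small -/
theorem small (c : Cx T H m p f K φ) : (p ^ f) ^ 9 < 4 * Nat.card ↥(H ⊓ T) ^ 2 := by
  by_contra h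
  obtain ⟨-, -, h1⟩ := Sv.boxLin2 G T H m _ 1 c.as c.half (fun x _ hx => c.cls9 hx) (not_lt.1 h) c.gen1
  rw [c.as.card_eq_mul c.half] at h1
  refine small_aux c.two_le ?_ h1 ?_ (not_lt.1 h)
  · rw [c.as.card_inf_mul c.half, c.card_T]
    exact le_ord c.two_le
  · exact (Nat.le_of_dvd (Nat.mul_pos three_pos c.f_pos) c.index_dvd).trans (Nat.mul_le_mul_left 3 c.f_lt.le)

theorem lo_le (c : Cx T H m p f K φ) {x : G} (hx : x ∈ T) (h1 : x ≠ 1) (hp : ¬ p ∣ orderOf x) :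
    lo (p ^ f) ≤ (centralizer {x}).relIndex T := by
  unfold lo
  split_ifs with h
  · obtain ⟨rfl, rfl⟩ := (Nat.Prime.pow_eq_iff Nat.prime_two).1 h
    exact c.ss2 hx h1 hp
  · have h2 := c.two_le
    refine le_trans ?_ (c.ss (by omega) hx h1 hp)
    rw [cS, show 16 = 8 + 8 from rfl, pow_add]
    exact Nat.mul_le_mul_left _ (by omega)

theorem exists_el (c : Cx T H m p f K φ) (h : Sim T H N) {k s : ℕ} (hk : Nat.card ↥(H ⊓ T) = Nat.card N * k)
    (hs : s.Prime) (h1 : s ∣ Nat.card N) (h2 : ¬ s ∣ Nat.card H / m) : ∃ u ∈ T, orderOf u = s ∧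
      (centralizer {u}).relIndex T ≤ Nat.gcd (Nat.card N) (Nat.card H / m) * cnt (Nat.card N) k s := by
  have := Fact.mk hs
  have hT := c.as.normal
  obtain ⟨u, hu⟩ := exists_prime_orderOf_dvd_card' s h1
  have hu' : orderOf (u : G) = s := by rw [orderOf_coe, hu]
  have huT : (u : G) ∈ T := (h.le u.2).2
  have hNH : N ≤ H := h.le.trans inf_le_left
  refine ⟨u, huT, hu', (Sv.boxEl G T H N N m s 1 u c.as c.half hs h2 hNH h.nrm le_rfl (fun a ha => h.nrm a (hNH ha))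
    u.2 (by rw [hu', pow_one])).trans (Nat.mul_le_mul (min_le_left _ _) ?_)⟩
  unfold cnt
  split_ifs with h3
  · rw [← hk]
    refine Set.ncard_le_ncard (t := ((H ⊓ T : Subgroup G) : Set G)) ?_ (Set.toFinite _)
    rintro _ ⟨h4, t, ht, rfl⟩
    exact ⟨h4, hT.conj_mem' _ huT t⟩
  · refine Set.ncard_le_ncard (t := (N : Set G)) ?_ (Set.toFinite _)
    rintro y ⟨h4, t, ht, hy⟩
    have h5 : y ∈ H ⊓ T := ⟨h4, hy ▸ hT.conj_mem' _ huT t⟩
    have h6 : (N.subgroupOf (H ⊓ T)).Normal := ⟨fun x hx a => h.nrm a a.2.1 x hx⟩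
    have h7 : (N.subgroupOf (H ⊓ T)).index = k := by
      refine Nat.eq_of_mul_eq_mul_left (Nat.card_pos (α := N)) ?_
      rw [← hk, ← Nat.card_congr (subgroupOfEquivOfLe h.le).toEquiv, card_mul_index]
    have h8 : y ^ k ∈ N := h7 ▸ (N.subgroupOf (H ⊓ T)).pow_index_mem ⟨y, h5⟩
    have h9 : orderOf y = s := by
      rw [← hy, ← hu']
      simpa using (MulAut.conj t⁻¹).orderOf_eq (u : G)
    obtain ⟨j, hj⟩ := exists_pow_eq_self_of_coprime (x := y) (n := k) (by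
      rw [h9]
      exact (hs.coprime_iff_not_dvd.2 fun h10 => h3 (Nat.mod_eq_zero_of_dvd h10)).symm)
    exact hj ▸ N.pow_mem h8 j

theorem cond (c : Cx T H m p f K φ) (h : Sim T H N) {k : ℕ} (hk : Nat.card ↥(H ⊓ T) = Nat.card N * k) :
    Cond p f (Nat.card N) k (Nat.card H / m) where
  hp := c.prime
  hf := c.f_pos
  dvd := by
    rw [← hk, ← c.card_T]
    exact card_dvd_of_le inf_le_right
  d_dvd := by
    rw [← hk, ← c.card_T, Sv.card_div_eq c.as c.half]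
    exact c.half.d_dvd
  nd := c.toLieCtx.not_dvd_d
  ss s hs h1 h2 h3 := by
    obtain ⟨u, h4, h5, h6⟩ := exists_el c h hk hs h1 h2
    refine (lo_le c h4 (fun e => hs.ne_one (by rw [← h5, e, orderOf_one])) fun h7 => h3 ?_).trans h6
    exact ((Nat.prime_dvd_prime_iff_eq c.prime hs).1 (h5 ▸ h7)).symm
  un h1 := by
    obtain ⟨u, -, h5, h6⟩ := exists_el c h hk c.prime h1 c.toLieCtx.not_dvd_d
    refine (c.cls9 fun e => c.prime.ne_one (by rw [← h5, e, orderOf_one])).trans (h6.trans (Nat.mul_le_mul_left _ ?_))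
    exact cnt_le (Nat.pos_of_mul_pos_left (hk ▸ Nat.card_pos)) p
  small := hk ▸ small c

theorem alt_le (c : Cx T H m p f K φ) (hN : N ≤ T) {n : ℕ} (e : N ≃* alternatingGroup (Fin n)) : n ≤ 7 := by
  have := Fact.mk c.prime
  have := c.char
  let i : N →* twistedD4 K (p ^ f) := c.iso.symm.toMonoidHom.comp (inclusion hN)
  have hi : Function.Injective i := c.iso.symm.injective.comp (inclusion_injective hN)
  refine (S2660.result p f c.f_pos c.cardK n i.range ⊥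
    ⟨QuotientGroup.quotientBot.trans ((MonoidHom.ofInjective hi).symm.trans e)⟩).trans ?_
  split_ifs <;> omega

end Si

open Si

/-- **the almost simple case** -/
theorem boxSi : BoxSi := by
  intro G _ _ T H N m p f K _ _ φ c _ h
  have := Fact.mk c.prime
  have := c.char
  have hN := h.simple
  have hNT : N ≤ T := h.le.trans inf_le_right
  obtain ⟨k, hk⟩ := card_dvd_of_le h.le
  have key : ∀ {l ou : ℕ}, p ^ f % l ≠ 0 → Nat.card (MulAut N) ∣ ou * Nat.card N → chkT (Nat.card N) l ou = true →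
      False := fun h1 h2 => (cond c h hk).not_chkT h1 (Nat.dvd_of_mul_dvd_mul_left (Nat.card_pos (α := N)) (by
    rw [← hk, mul_comm]
    exact (Ex1.card_dvd_aut h).trans h2))
  have h0 : p ^ f % 0 ≠ 0 := by
    have := c.two_le
    omega
  rcases Ex1.enum c.allK (n := 28) (by norm_num) h.nonab (fth_of (fth_td4 K (p ^ f))
    (f := c.iso.symm.toMonoidHom.comp (inclusion hNT)) (c.iso.symm.injective.comp (inclusion_injective hNT)))
    (fun h4 => c.nown (Cl.Cases.hasOwn_of (h.le.trans inf_le_left) h.nrm hN h.nonab h4)) with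
    ⟨n, h5, ⟨e⟩, h6, h7⟩ | ⟨x, hx, -, h6, h7⟩ | ⟨x, hx, h5, -, h6, h7⟩
  · have h8 := List.all_eq_true.1 tabA n (List.mem_range.2 (Nat.lt_succ_of_le (alt_le c hNT e)))
    rw [Bool.or_eq_true, Nat.blt_eq, show n.factorial / 2 = Nat.card N by omega] at h8
    refine key h0 ?_ (h8.resolve_left (by omega))
    rw [h7, autA]
    split_ifs with h9
    · subst h9
      rw [show Nat.card N = 360 by have : Nat.factorial 6 = 720 := rfl; omega]
    · exact dvd_of_eq h6.symm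
  · exact key h0 (h6 ▸ h7) (h6 ▸ List.all_eq_true.1 tabS x hx)
  · refine key (fun h8 => h5 ?_) (h6 ▸ h7.dvd) (h6 ▸ List.all_eq_true.1 tabL x hx)
    have h9 := sm_prime _ (List.contains_iff_mem.1 (List.all_eq_true.1 tabP x hx))
    exact (Nat.prime_dvd_prime_iff_eq h9 c.prime).1 (h9.dvd_of_dvd_pow (Nat.dvd_of_mod_eq_zero h8))

end Cfsg.Agent.TH.ExT
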