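import Cfsg.Agent.TH.ExT.Dat
import Cfsg.Agent.H252.EN.Tab

/-!
# S3541, `³D₄(q)` with `H ⊓ T` almost simple: the numerical test (helper23)

`Cond p f t k d` : `t = |N|`, `t k = |H ⊓ T|`, `d` the subdegree; `chkT t l ou` is the kernel test for one group `N`.
-/

set_option autoImplicit false

namespace Cfsg.Agent.TH.ExT.Si

open Cfsg.Agent.H252.EN

/-- a lower bound for the semisimple classes -/
def lo (q : ℕ) : ℕ := if q = 2 then 139776 else q ^ 16

/-- a bound for the number of elements of order `s` -/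
def cnt (t k s : ℕ) : ℕ := if k % s = 0 then t * k else t

/-- the necessary conditions -/
structure Cond (p f t k d : ℕ) : Prop where
  hp : p.Prime
  hf : 0 < f
  dvd : t * k ∣ ord (p ^ f)
  d_dvd : d ∣ ord (p ^ f) / (t * k) - 1
  nd : ¬ p ∣ d
  ss : ∀ s, s.Prime → s ∣ t → ¬ s ∣ d → s ≠ p → lo (p ^ f) ≤ Nat.gcd t d * cnt t k s
  un : p ∣ t → (p ^ f) ^ 9 ≤ Nat.gcd t d * (t * k)
  small : (p ^ f) ^ 9 < 4 * (t * k) ^ 2

/-! ### the test -/

/-- `f i` for `lo ≤ i < lo + 2 ^ n` until `stop i` -/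
def allB (stop f : ℕ → Bool) (n : ℕ) : ℕ → Bool :=
  Nat.rec (motive := fun _ => ℕ → Bool) (fun i => stop i || f i)
    (fun k ih i => stop i || (ih i && force (i + 2 ^ k) ih)) n

/-- `f i` for `lo ≤ i` until `stop i` -/
def allS (stop f : ℕ → Bool) (n lo : ℕ) : Bool := stop (lo + 2 ^ n) && allB stop f n lo

/-- `f q` for `2 ≤ q` with `R ∣ ord q` until `stop q` -/
def allQ (stop f : ℕ → Bool) (R : ℕ) : Bool :=
  force R fun R => (List.range R).all fun x => ord x % R != 0 ||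
    allS (fun j => stop (x + R * j)) (fun j => force (x + R * j) fun q => Nat.blt q 2 || f q) 9 0

/-- the prime `r` does not divide the subdegree -/
def bad (r a : ℕ) : Bool :=
  ((List.range r).all fun x => (x ^ 4 + 1 - x ^ 2) % r != 0) &&
    (((List.range 30).any fun j => a % r ^ (2 * j + 1) == 0 && a % r ^ (2 * (j + 1)) != 0) ||
      ((r == 2 && a % 2 ^ (2 * 3) != 0) || (r == 3 && a % 3 ^ (2 * 2) != 0)))

/-- the small primes -/
def sm : List ℕ := [2, 3, 5, 7, 11, 13, 17, 19, 23, 29, 31, 37, 41, 43, 47, 53, 59, 61, 67, 71]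

/-- the test for one `q` -/
def dead (t l k a q : ℕ) : Bool :=
  force (ord q) fun O => O % a != 0 || (q % l == 0 || force (O / a - 1) fun n => force (Nat.gcd t n) fun g =>
    sm.any fun s => t % s == 0 && (n % s != 0 && (q % s != 0 && Nat.blt (g * cnt t k s) (lo q))))

/-- the primes which do not divide the subdegree are removed from `g` -/
def strip (t a : ℕ) (F : ℕ → ℕ → Bool) : List ℕ → ℕ → ℕ → Bool
  | [], s, g => F s g
  | r :: L, s, g => cond (t % r == 0 && bad r a) (force (g / Nat.gcd g (r ^ 100)) (strip t a F L r))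
      (strip t a F L s g)

theorem strip_realised : True := by have := @strip.eq_def; trivial

/-- the test for `|H ⊓ T| = t k` -/
def chkK (t l k : ℕ) : Bool :=
  force (t * k) fun a => strip t a (fun s g => force (g * a) fun C =>
    cond (s == 0) (force (4 * a ^ 2) fun D => allS (fun q => Nat.ble D (q ^ 9)) (dead t l k a) 10 2)
      (allQ (fun q => Nat.blt C (q ^ 16)) (dead t l k a) (Nat.gcd t 2773) &&
        allS (fun f => Nat.blt C ((s ^ f) ^ 9)) (fun f => force (s ^ f) (dead t l k a)) 6 1)) sm 0 t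

/-- the test for one group -/
def chkT (t l ou : ℕ) : Bool :=
  force t fun t => force ou fun ou => Nat.blt 0 ou && (List.range ou).all fun k => ou % (k + 1) != 0 || chkK t l (k + 1)

/-! ### soundness -/

theorem allB_sound {stop f : ℕ → Bool} {n lo : ℕ} (h : allB stop f n lo = true) {i : ℕ} (h1 : lo ≤ i)
    (h2 : i < lo + 2 ^ n) (h3 : ∀ j, j ≤ i → stop j = false) : f i = true := by
  induction n generalizing lo with
  | zero =>
    have h4 : (stop lo || f lo) = true := h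
    obtain rfl : lo = i := by omega
    rwa [h3 lo h1, Bool.false_or] at h4
  | succ k ih =>
    have h4 : (stop lo || (allB stop f k lo && force (lo + 2 ^ k) (allB stop f k))) = true := h
    rw [h3 lo h1, Bool.false_or, Bool.and_eq_true, force_eq] at h4
    by_cases h5 : i < lo + 2 ^ k
    · exact ih h4.1 h1 h5
    · exact ih h4.2 (not_lt.1 h5) (by rw [pow_succ] at h2; omega)

theorem allS_sound {stop f : ℕ → Bool} {n lo : ℕ} (h : allS stop f n lo = true) {i : ℕ} (h1 : lo ≤ i)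
    (h3 : ∀ j, j ≤ i → stop j = false) : f i = true := by
  rw [allS, Bool.and_eq_true] at h
  refine allB_sound h.2 h1 (not_le.1 fun h2 => ?_) h3
  rw [h3 _ h2] at h
  exact Bool.false_ne_true h.1

theorem allQ_sound {stop f : ℕ → Bool} {R q : ℕ} (h : allQ stop f R = true) (h0 : 0 < R) (h1 : 2 ≤ q) (h2 : R ∣ ord q)
    (h3 : ∀ j, j ≤ q → stop j = false) : f q = true := by
  rw [allQ, force_eq] at h
  have h4 := List.all_eq_true.1 h _ (List.mem_range.2 (Nat.mod_lt q h0))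
  have h5 : ord (q % R) % R = 0 := by
    rcases Nat.eq_zero_or_pos (q % R) with h6 | h6
    · rw [h6]
      exact Nat.zero_mod R
    have h7 : q % R ≡ q [MOD R] := Nat.mod_modEq q R
    have h8 : ∀ e, (q % R) ^ e - 1 ≡ q ^ e - 1 [MOD R] := fun e =>
      Nat.ModEq.sub (Nat.one_le_pow _ _ h6) (Nat.one_le_pow _ _ (by omega)) (h7.pow e) rfl
    exact Eq.trans ((((h7.pow 12).mul (h8 2)).mul (h8 6)).mul (((h7.pow 8).add (h7.pow 4)).add_right 1))
      (Nat.mod_eq_zero_of_dvd h2)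
  rw [h5, bne_self_eq_false, Bool.false_or] at h4
  have h6 := allS_sound h4 (Nat.zero_le (q / R)) fun j hj =>
    h3 _ ((Nat.add_le_add_left (Nat.mul_le_mul_left R hj) _).trans (Nat.mod_add_div q R).le)
  rw [force_eq, Nat.mod_add_div, Bool.or_eq_true, Nat.blt_eq] at h6
  exact h6.resolve_left (by omega)

theorem sq_le (x : ℕ) : x ^ 2 ≤ x ^ 4 + 1 := by
  nlinarith [sq_nonneg ((x : ℤ) ^ 2 - 1), Nat.zero_le (x ^ 2)]

theorem ord_eq {q : ℕ} (hq : 0 < q) : ord q = (q ^ 6 * (q ^ 6 - 1)) ^ 2 * (q ^ 4 + 1 - q ^ 2) := by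
  unfold ord
  zify [Nat.one_le_pow 2 q hq, Nat.one_le_pow 6 q hq, sq_le q]
  ring

theorem le_ord {q : ℕ} (hq : 2 ≤ q) : q ^ 20 ≤ ord q := by
  have h1 : 1 < q ^ 2 := Nat.one_lt_pow (by norm_num) hq
  have h2 : 1 < q ^ 6 := Nat.one_lt_pow (by norm_num) hq
  calc q ^ 20 = q ^ 12 * 1 * 1 * q ^ 8 := by ring
    _ ≤ _ := by
      unfold ord
      gcongr <;> omega

theorem sq_dvd {r a n X P j : ℕ} (hr : r.Prime) (h : a * n = X ^ 2 * P) (hn : ¬ r ∣ n) (hj : r ^ j ∣ X) :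
    r ^ (2 * j) ∣ a := by
  refine ((hr.coprime_iff_not_dvd.2 hn).pow_left _).dvd_of_dvd_mul_right ?_
  rw [h, mul_comm 2, pow_mul]
  exact (pow_dvd_pow_of_dvd hj 2).mul_right _

theorem odd_dvd {r X P j : ℕ} (hr : r.Prime) (hX : X ≠ 0) (hP : ¬ r ∣ P) (h : r ^ (2 * j + 1) ∣ X ^ 2 * P) :
    r ^ (j + 1) ∣ X := by
  obtain ⟨i, y, hy, rfl⟩ := Nat.exists_eq_pow_mul_and_not_dvd hX r hr.ne_one
  rw [mul_pow, mul_assoc, ← pow_mul] at h
  have h1 := ((((hr.coprime_iff_not_dvd.2 hy).pow_right 2).mul_right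
    (hr.coprime_iff_not_dvd.2 hP)).pow_left _).dvd_of_dvd_mul_right h
  have h2 := (Nat.pow_dvd_pow_iff_le_right hr.one_lt).1 h1
  exact (pow_dvd_pow r (by omega)).mul_right _

theorem dvd_six {r R q : ℕ} (h : ∀ x < R, x % r = 0 ∨ x ^ 6 % R = 1 % R) (hR : r ∣ R) (h0 : 0 < R) (hq : ¬ r ∣ q)
    (h1 : 0 < q) : R ∣ q ^ 6 * (q ^ 6 - 1) := by
  refine Dvd.dvd.mul_left ((Nat.modEq_iff_dvd' (Nat.one_le_pow 6 q h1)).1 ?_) _
  refine ((h _ (Nat.mod_lt q h0)).resolve_left fun h2 => hq ?_).symm.trans (Nat.pow_mod q 6 R).symm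
  rw [Nat.mod_mod_of_dvd _ hR] at h2
  exact Nat.dvd_of_mod_eq_zero h2

theorem bad_false {r a n q : ℕ} (hr : r.Prime) (hq : ¬ r ∣ q) (h2 : 2 ≤ q) (h : a * n = ord q) (hn : ¬ r ∣ n) :
    bad r a = false := by
  rw [← Bool.not_eq_true]
  intro hb
  simp only [bad, Bool.and_eq_true, Bool.or_eq_true, List.all_eq_true, List.any_eq_true, List.mem_range, bne_iff_ne,
    beq_iff_eq] at hb
  obtain ⟨h3, h4⟩ := hb
  have h0 : 0 < q := by omega
  rw [ord_eq h0] at h
  have hP : ¬ r ∣ q ^ 4 + 1 - q ^ 2 := fun h5 => h3 _ (Nat.mod_lt q hr.pos) (by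
    have h6 : q % r ≡ q [MOD r] := Nat.mod_modEq q r
    exact Eq.trans (Nat.ModEq.sub (sq_le _) (sq_le _) ((h6.pow 4).add_right 1) (h6.pow 2))
      (Nat.mod_eq_zero_of_dvd h5))
  have hX : q ^ 6 * (q ^ 6 - 1) ≠ 0 := by
    have : 1 < q ^ 6 := Nat.one_lt_pow (by norm_num) h2
    exact Nat.mul_ne_zero (by omega) (by omega)
  rcases h4 with ⟨j, -, h4, h5⟩ | ⟨rfl, h4⟩ | ⟨rfl, h4⟩
  · exact h5 (Nat.mod_eq_zero_of_dvd (sq_dvd hr h hn (odd_dvd hr hX hP
      (h ▸ (Nat.dvd_of_mod_eq_zero h4).mul_right n))))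
  · exact h4 (Nat.mod_eq_zero_of_dvd (sq_dvd hr h hn (dvd_six (by decide) (by decide) (by decide) hq h0)))
  · exact h4 (Nat.mod_eq_zero_of_dvd (sq_dvd hr h hn (dvd_six (by decide) (by decide) (by decide) hq h0)))

theorem le_lo (q : ℕ) : q ^ 16 ≤ lo q := by
  unfold lo
  split_ifs with h
  · subst h
    norm_num
  · exact le_rfl

theorem cnt_le {t k : ℕ} (hk : 0 < k) (s : ℕ) : cnt t k s ≤ t * k := by
  unfold cnt
  split_ifs
  · exact le_rfl
  · exact Nat.le_mul_of_pos_right t hk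

theorem sm_prime : ∀ r ∈ sm, r.Prime := by decide

namespace Cond

variable {p f t k d : ℕ} (c : Cond p f t k d)

include c

theorem two_le : 2 ≤ p ^ f := c.hp.two_le.trans (Nat.le_self_pow c.hf.ne' p)

theorem opos : 0 < ord (p ^ f) := (pow_pos (lt_of_lt_of_le two_pos c.two_le) _).trans_le (le_ord c.two_le)

theorem tk_pos : 0 < t * k := Nat.pos_of_dvd_of_pos c.dvd c.opos

theorem t_pos : 0 < t := Nat.pos_of_mul_pos_right c.tk_pos

theorem k_pos : 0 < k := Nat.pos_of_mul_pos_left c.tk_pos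

theorem not_dvd_d {r : ℕ} (hr : r.Prime) (h : bad r (t * k) = true) : ¬ r ∣ d := by
  by_cases h1 : r = p
  · exact h1 ▸ c.nd
  intro h2
  have h4 : 0 < ord (p ^ f) / (t * k) := Nat.div_pos (Nat.le_of_dvd c.opos c.dvd) c.tk_pos
  rw [bad_false hr (fun h3 => h1 ((Nat.prime_dvd_prime_iff_eq hr c.hp).1 (hr.dvd_of_dvd_pow h3))) c.two_le
    (Nat.mul_div_cancel' c.dvd) fun h6 => ?_] at h
  · exact Bool.false_ne_true h
  have h7 := Nat.dvd_sub h6 (h2.trans c.d_dvd)
  rw [Nat.sub_sub_self h4] at h7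
  exact hr.one_lt.ne' (Nat.dvd_one.1 h7)

theorem not_dead {l : ℕ} (hl : p ^ f % l ≠ 0) (h : dead t l k (t * k) (p ^ f) = true) : False := by
  have h1 : Nat.gcd t d ≤ Nat.gcd t (ord (p ^ f) / (t * k) - 1) :=
    Nat.le_of_dvd (Nat.gcd_pos_of_pos_left _ c.t_pos) (Nat.gcd_dvd_gcd_of_dvd_right _ c.d_dvd)
  rw [dead, force_eq, force_eq, force_eq, Nat.mod_eq_zero_of_dvd c.dvd] at h
  simp only [bne_self_eq_false, Bool.false_or, Bool.or_eq_true, Bool.and_eq_true, beq_iff_eq, List.any_eq_true,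
    bne_iff_ne, Nat.blt_eq] at h
  obtain ⟨s, hs, h3, h4, h5, h6⟩ := h.resolve_left hl
  have h7 := c.ss s (sm_prime s hs) (Nat.dvd_of_mod_eq_zero h3)
    (fun h8 => h4 (Nat.mod_eq_zero_of_dvd (h8.trans c.d_dvd))) fun h8 => h5 (Nat.mod_eq_zero_of_dvd (by
      rw [h8]
      exact dvd_pow_self p c.hf.ne'))
  exact absurd (h7.trans (Nat.mul_le_mul_right _ h1)) (not_le.2 h6)

theorem of_strip {F : ℕ → ℕ → Bool} (L : List ℕ) (hL : ∀ r ∈ L, r.Prime) {s g : ℕ}
    (hs : s = 0 ∨ (s.Prime ∧ s ∣ t ∧ ¬ s ∣ d)) (hg : Nat.gcd t d ∣ g) (h0 : 0 < g)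
    (h : strip t (t * k) F L s g = true) :
    ∃ s g, (s = 0 ∨ (s.Prime ∧ s ∣ t ∧ ¬ s ∣ d)) ∧ Nat.gcd t d ≤ g ∧ F s g = true := by
  induction L generalizing s g with
  | nil => exact ⟨s, g, hs, Nat.le_of_dvd h0 hg, h⟩
  | cons r L ih =>
    have hL' : ∀ a ∈ L, a.Prime := fun a ha => hL a (List.mem_cons_of_mem _ ha)
    have hr := hL r List.mem_cons_self
    rw [strip] at h
    cases h1 : (t % r == 0 && bad r (t * k))
    · rw [h1, cond_false] at h
      exact ih hL' hs hg h0 h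
    · rw [h1, cond_true, force_eq] at h
      rw [Bool.and_eq_true, beq_iff_eq] at h1
      have h2 := c.not_dvd_d hr h1.2
      have h3 : Nat.Coprime (Nat.gcd t d) (Nat.gcd g (r ^ 100)) :=
        ((hr.coprime_iff_not_dvd.2 fun h4 => h2 (h4.trans (Nat.gcd_dvd_right t d))).symm.pow_right 100).coprime_dvd_right
          (Nat.gcd_dvd_right _ _)
      refine ih hL' (Or.inr ⟨hr, Nat.dvd_of_mod_eq_zero h1.1, h2⟩) (h3.dvd_of_dvd_mul_left ?_)
        (Nat.div_pos (Nat.gcd_le_left _ h0) (Nat.gcd_pos_of_pos_left _ h0)) h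
      rw [Nat.mul_div_cancel' (Nat.gcd_dvd_left _ _)]
      exact hg

theorem not_chkK {l : ℕ} (hl : p ^ f % l ≠ 0) (h : chkK t l k = true) : False := by
  rw [chkK, force_eq] at h
  obtain ⟨s, g, h1, h2, h3⟩ := c.of_strip sm sm_prime (Or.inl rfl) (Nat.gcd_dvd_left t d) c.t_pos h
  rw [force_eq] at h3
  refine c.not_dead hl ?_
  rcases h1 with rfl | ⟨hs, h4, h5⟩
  · rw [BEq.rfl, cond_true, force_eq] at h3
    refine allS_sound h3 c.two_le fun j hj => ?_
    rw [Bool.eq_false_iff, Ne, Nat.ble_eq, not_le]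
    exact (Nat.pow_le_pow_left hj _).trans_lt c.small
  rw [beq_eq_false_iff_ne.2 hs.ne_zero, cond_false, Bool.and_eq_true] at h3
  have h6 : Nat.gcd t d * (t * k) ≤ g * (t * k) := Nat.mul_le_mul_right _ h2
  by_cases hp : s = p
  · subst hp
    have h7 := allS_sound h3.2 c.hf fun j hj => by
      rw [Bool.eq_false_iff, Ne, Nat.blt_eq, not_lt]
      exact (Nat.pow_le_pow_left (Nat.pow_le_pow_right hs.pos hj) _).trans ((c.un h4).trans h6)
    rwa [force_eq] at h7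
  · refine allQ_sound h3.1 (Nat.gcd_pos_of_pos_left _ c.t_pos) c.two_le
      ((Nat.gcd_dvd_left _ _).trans ((Dvd.intro _ rfl).trans c.dvd)) fun j hj => ?_
    rw [Bool.eq_false_iff, Ne, Nat.blt_eq, not_lt]
    exact (Nat.pow_le_pow_left hj _).trans ((le_lo _).trans ((c.ss s hs h4 h5 hp).trans
      ((Nat.mul_le_mul_left _ (cnt_le c.k_pos s)).trans h6)))

/-- **the test is sound** -/
theorem not_chkT {l ou : ℕ} (hl : p ^ f % l ≠ 0) (hk : k ∣ ou) (h : chkT t l ou = true) : False := by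
  simp only [chkT, force_eq, Bool.and_eq_true, Nat.blt_eq, List.all_eq_true, List.mem_range, Bool.or_eq_true,
    bne_iff_ne] at h
  have h2 := c.k_pos
  have h3 := Nat.le_of_dvd h.1 hk
  have h4 := h.2 (k - 1) (by omega)
  rw [Nat.sub_add_cancel h2] at h4
  exact c.not_chkK hl (h4.resolve_left fun h5 => h5 (Nat.mod_eq_zero_of_dvd hk))

end Cond

end Cfsg.Agent.TH.ExT.Si
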