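import Cfsg.Agent.TH.ExT.Dat

/-!
# S3541, `³D₄(q)` : the finite sieves (helper57)
-/

set_option autoImplicit false
set_option linter.unusedSectionVars false

namespace Cfsg.Agent.TH.ExT

open Subgroup Cfsg Cfsg.Lie Cfsg.Agent.TH.Sv

/-- the sieve for small stabilisers -/
def parS (p f : ℕ) : Par where
  N := ord (p ^ f)
  p := p
  outT := 3 * f
  c := (p ^ f) ^ 5
  NB := ord (p ^ f)
  cG := fun _ _ => (p ^ f) ^ 9
  cA := fun _ _ => (p ^ f) ^ 9
  cS := fun _ _ s => bif Nat.beq s p then (p ^ f) ^ 9 else (p ^ f) ^ 5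
  fa := fun a _ => Nat.ble a (24 * ((p ^ f) ^ 2 + p ^ f + 1) ^ 2)

/-- the sieve for `q = 2` -/
def par2 : Par where
  N := ord (2 ^ 1)
  p := 2
  outT := 3 * 1
  c := 224
  NB := ord (2 ^ 1)
  cG := fun _ _ => (2 ^ 1) ^ 9
  cA := fun _ _ => (2 ^ 1) ^ 9
  cS := fun _ _ s => bif Nat.beq s 2 then cP (2 ^ 1) else 224
  fa := fun a _ => Nat.ble a 3024
  flt := notIn2 [(1176, 7)]

theorem sv2 : sieveG par2 = true := by decide +kernel
theorem sv3 : sieveG (parS 3 1) = true := by decide +kernel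
theorem sv4 : sieveG (parS 2 2) = true := by decide +kernel
theorem sv8 : sieveG (parS 2 3) = true := by decide +kernel
theorem sv9 : sieveG (parS 3 2) = true := by decide +kernel
theorem sv27 : sieveG (parS 3 3) = true := by decide +kernel

end Cfsg.Agent.TH.ExT
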