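import Cfsg.Agent.SB.Low.TabD
import Cfsg.Agent.S1092

/-!
# S3541, `³D₄(q)` : more tables for the root system `D₄` (helper57)
-/

set_option autoImplicit false
set_option linter.unusedSectionVars false

namespace Cfsg.Agent.TH.ExT

open Subgroup Cfsg Cfsg.Lie CoxeterSystem
open Cfsg.Agent.ChevalleyStructure.CoxeterGeom Cfsg.Agent.ChevalleyStructure.CoxeterGeomTypes Cfsg.Agent.Tits.Roots
  Cfsg.Agent.Nodes.Reps Cfsg.Agent.Nodes.Coroot Cfsg.Agent.Nodes.RGDChev Cfsg.Lie.ChevalleyDatum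
  Cfsg.Agent.Nodes.RGDTwD4 Cfsg.Agent.SB.Low Cfsg.Agent.SB.Low.Tab.D

section

variable {I W : Type} [Fintype I] [DecidableEq I] [Group W] {M : CoxeterMatrix I} (cs : CoxeterSystem M W)
  {A : I → I → ℤ} (h : IsCartan M A)

/-- three roots and their negatives -/
def O3 (b c d : I → ℤ) : Set (I → ℤ) := {b, -b, c, -c, d, -d}

/-- `w` acts as `± 1` modulo `Λ` -/
def PM (w : W) (Λ : AddSubgroup (I → ℤ)) : Prop := (∀ x, rep cs h w x - x ∈ Λ) ∨ ∀ x, rep cs h w x + x ∈ Λ

/-- facts on the stabilisers of subsystems -/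
structure RX : Prop where
  cardW : Nat.card W = 192
  x1 : ∀ (w : W) a, IsRoot cs h a → (rep cs h w a = a ∨ rep cs h w a = -a) → ∀ b, rep cs h w (rep cs h w b) = b
  x2 : ∀ (w : W) a b, IsRoot cs h a → IsRoot cs h b → cpr cs h b a = -1 → rep cs h w a ∈ A2 a b →
    rep cs h w b ∈ A2 a b → ∀ Λ : AddSubgroup (I → ℤ), a ∈ Λ → b ∈ Λ → PM cs h w Λ
  x3 : ∀ (w : W) b c d, IsRoot cs h b → IsRoot cs h c → IsRoot cs h d → cpr cs h c b = 0 → cpr cs h d b = 0 →
    cpr cs h d c = 0 → rep cs h w b ∈ O3 b c d → rep cs h w c ∈ O3 b c d → rep cs h w d ∈ O3 b c d →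
    ∀ Λ : AddSubgroup (I → ℤ), Sat 2 Λ → b ∈ Λ → c ∈ Λ → d ∈ Λ → PM cs h w Λ

/-- the root orthogonal to an orbit of three orthogonal roots -/
def RY (θ : (I → ℤ) →+ (I → ℤ)) : Prop := ∀ b, IsRoot cs h b → cpr cs h (θ b) b = 0 →
  ∃ a, IsRoot cs h a ∧ (θ a = a ∨ θ a = -a) ∧ cpr cs h b a = 0 ∧ cpr cs h (θ b) a = 0 ∧ cpr cs h (θ (θ b)) a = 0

end

/-- the simple roots -/
def BL : List T4 := [r18, r14, r13, r12]

theorem chk_x1 : (WL.all fun m => RL.all fun a => (ap m a != a && ap m a != -a) ||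
    BL.all fun x => ap m (ap m x) == x) = true := by decide +kernel

/-- `y` is an integral combination of `a` and `b` -/
def in2 (a b y : T4) : Bool := y == ((2 * ip y a + ip y b) / 3) • a + ((ip y a + 2 * ip y b) / 3) • b

theorem chk_x2 : (RL.all fun a => RL.all fun b => ip b a != -1 || WL.all fun m =>
    !(a2 a b).contains (ap m a) || !(a2 a b).contains (ap m b) || (BL.all fun x => in2 a b (ap m x - x)) ||
      BL.all fun x => in2 a b (ap m x + x)) = true := by decide +kernel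

/-- `2 y` is an integral combination of `b`, `c`, `d` -/
def in3 (b c d y : T4) : Bool := (2 : ℤ) • y == ip y b • b + ip y c • c + ip y d • d

/-- the list form of `O3` -/
def o3 (b c d : T4) : List T4 := [b, -b, c, -c, d, -d]

theorem chk_x3 : (RL.all fun b => RL.all fun c => ip c b != 0 || RL.all fun d => ip d b != 0 || ip d c != 0 ||
    WL.all fun m => !(o3 b c d).contains (ap m b) || !(o3 b c d).contains (ap m c) || !(o3 b c d).contains (ap m d) ||
      (BL.all fun x => in3 b c d (ap m x - x)) || BL.all fun x => in3 b c d (ap m x + x)) = true := by decide +kernel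

theorem chk_y : (WL.all fun m => RL.all fun b => ip (ap (tm m) b) b != 0 || RL.any fun a =>
    (ap (tm m) a == a || ap (tm m) a == -a) && ip b a == 0 && ip (ap (tm m) b) a == 0 &&
      ip (ap (tm m) (ap (tm m) b)) a == 0) = true := by decide +kernel

theorem sr_mem (i : Fin 4) : vt (sr i) ∈ BL := by
  revert i
  decide +kernel

theorem mem_o3 {b c d x : Fin 4 → ℤ} : vt x ∈ o3 (vt b) (vt c) (vt d) ↔ x ∈ O3 b c d := by
  simp only [o3, O3, ← vt_neg, List.mem_cons, List.not_mem_nil, or_false, vt_inj.eq_iff, Set.mem_insert_iff,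
    Set.mem_singleton_iff]

theorem all_of_sr {Λ : AddSubgroup (Fin 4 → ℤ)} (f : (Fin 4 → ℤ) →+ (Fin 4 → ℤ)) (h : ∀ i, f (sr i) ∈ Λ) (x : Fin 4 → ℤ) :
    f x ∈ Λ := by
  rw [Nodes.SimplyLaced.eq_sum_sr x, map_sum]
  exact sum_mem fun i _ => by rw [map_zsmul]; exact zsmul_mem (h i) _

theorem rx : RX coxeterD4.toCoxeterSystem hp.isCartan := by
  have := finite_W hp coxeterD4.toCoxeterSystem
  set cs := coxeterD4.toCoxeterSystem
  have pm : ∀ (w : coxeterD4.Group) (Λ : AddSubgroup (Fin 4 → ℤ)) (f : T4 → Bool), (∀ y, f (vt y) = true → y ∈ Λ) →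
      ((BL.all fun x => f (ap (mat cs w) x - x)) = true ∨ (BL.all fun x => f (ap (mat cs w) x + x)) = true) →
      PM cs hp.isCartan w Λ := by
    intro w Λ f hf h
    refine h.imp (fun h => all_of_sr ((rep cs hp.isCartan w).toAddMonoidHom - AddMonoidHom.id _) fun i => hf _ ?_)
      fun h => all_of_sr ((rep cs hp.isCartan w).toAddMonoidHom + AddMonoidHom.id _) fun i => hf _ ?_
    · have h1 := List.all_eq_true.1 h _ (sr_mem i)
      rwa [← ap_mat, ← vt_sub] at h1
    · have h1 := List.all_eq_true.1 h _ (sr_mem i)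
      rwa [← ap_mat, ← vt_add] at h1
  refine ⟨S1092.result (⟨4, coxeterD4⟩, 192) (by simp), fun w a ha h b => ?_, fun w a b ha hb h h1 h2 Λ aΛ bΛ => ?_,
    fun w b c d hb hc hd h1 h2 h3 h4 h5 h6 Λ hΛ bΛ cΛ dΛ => ?_⟩
  · have h1 := List.all_eq_true.1 (List.all_eq_true.1 chk_x1 _ (mat_mem cs w)) _ ((root_iff cs a).1 ha)
    rw [← ap_mat, ← vt_neg, Bool.or_eq_true, Bool.and_eq_true, bne_iff_ne, bne_iff_ne, vt_inj.ne_iff, vt_inj.ne_iff] at h1
    have h2 := h1.resolve_left fun h3 => h.elim h3.1 h3.2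
    have h3 := all_of_sr (Λ := ⊥) ((rep cs hp.isCartan w).toAddMonoidHom.comp (rep cs hp.isCartan w).toAddMonoidHom -
      AddMonoidHom.id _) (fun i => by
        have h4 := List.all_eq_true.1 h2 _ (sr_mem i)
        rw [← ap_mat, ← ap_mat, beq_iff_eq, vt_inj.eq_iff] at h4
        exact sub_eq_zero.2 h4) b
    exact sub_eq_zero.1 h3
  · have h3 := List.all_eq_true.1 (List.all_eq_true.1 chk_x2 _ ((root_iff cs a).1 ha)) _ ((root_iff cs b).1 hb)
    rw [← cpr_eq cs _ ha, h, bne_self_eq_false, Bool.false_or] at h3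
    have h4 := List.all_eq_true.1 h3 _ (mat_mem cs w)
    rw [← ap_mat, ← ap_mat, List.contains_iff_mem.2 (mem_a2.2 h1), List.contains_iff_mem.2 (mem_a2.2 h2), Bool.not_true,
      Bool.false_or, Bool.false_or, Bool.or_eq_true] at h4
    refine pm w Λ _ (fun y hy => ?_) h4
    rw [in2, ← vt_smul, ← vt_smul, ← vt_add, beq_iff_eq, vt_inj.eq_iff] at hy
    rw [hy]
    exact add_mem (zsmul_mem aΛ _) (zsmul_mem bΛ _)
  · have h7 := List.all_eq_true.1 (List.all_eq_true.1 chk_x3 _ ((root_iff cs b).1 hb)) _ ((root_iff cs c).1 hc)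
    rw [← cpr_eq cs _ hb, h1, bne_self_eq_false, Bool.false_or] at h7
    have h8 := List.all_eq_true.1 h7 _ ((root_iff cs d).1 hd)
    rw [← cpr_eq cs _ hb, ← cpr_eq cs _ hc, h2, h3, bne_self_eq_false, Bool.false_or, Bool.false_or] at h8
    have h9 := List.all_eq_true.1 h8 _ (mat_mem cs w)
    rw [← ap_mat, ← ap_mat, ← ap_mat, List.contains_iff_mem.2 (mem_o3.2 h4), List.contains_iff_mem.2 (mem_o3.2 h5),
      List.contains_iff_mem.2 (mem_o3.2 h6), Bool.not_true, Bool.false_or, Bool.false_or, Bool.false_or,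
      Bool.or_eq_true] at h9
    refine pm w Λ _ (fun y hy => hΛ y ?_) h9
    rw [in3, ← vt_smul, ← vt_smul, ← vt_smul, ← vt_smul, ← vt_add, ← vt_add, beq_iff_eq, vt_inj.eq_iff] at hy
    rw [hy]
    exact add_mem (add_mem (zsmul_mem bΛ _) (zsmul_mem cΛ _)) (zsmul_mem dΛ _)

theorem ry (w : coxeterD4.Group) : RY coxeterD4.toCoxeterSystem hp.isCartan
    (tw coxeterD4.toCoxeterSystem hp.isCartan w (H720.TwFr.permE H720.TwFr.rho4).toAddMonoidHom) := by
  have := finite_W hp coxeterD4.toCoxeterSystem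
  set cs := coxeterD4.toCoxeterSystem
  set θ := tw cs hp.isCartan w (H720.TwFr.permE H720.TwFr.rho4).toAddMonoidHom
  have hθ : ∀ x, vt (θ x) = ap (tm (mat cs w)) (vt x) := fun x => by
    show vt (rep cs hp.isCartan w (H720.TwFr.permE H720.TwFr.rho4 x)) = _
    rw [ap_mat, g_eq]
    simp only [ap, tm, id4, r18, r14, r13, r12]
    refine Prod.ext ?_ (Prod.ext ?_ (Prod.ext ?_ ?_)) <;> simp only <;> ring
  intro b hb h
  have h1 := List.all_eq_true.1 (List.all_eq_true.1 chk_y _ (mat_mem cs w)) _ ((root_iff cs b).1 hb)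
  rw [← hθ, ← hθ, ← cpr_eq cs _ hb, h, bne_self_eq_false, Bool.false_or, List.any_eq_true] at h1
  obtain ⟨a, ha, h2⟩ := h1
  have ha' := (root_iff cs (tv a)).2 ha
  rw [← vt_tv a] at h2
  simp only [← hθ, ← vt_neg, ← cpr_eq cs _ ha', Bool.and_eq_true, Bool.or_eq_true, beq_iff_eq, vt_inj.eq_iff] at h2
  exact ⟨tv a, ha', h2.1.1.1, h2.1.1.2, h2.1.2, h2.2⟩

end Cfsg.Agent.TH.ExT
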